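import Cfsg.Agent.H434.CornMove
import Cfsg.Agent.H781.TW.Def

/-!
# S2452, `Ω_(2n+1)(q)`: good maximal totally singular subspaces (helper311, box D2 of helper781)

`exists_good`: if `g` is not scalar and `R1 Q g` fails (i.e. the form `β(x, y) = polar Q (g x) y` has rank two on a totally
singular plane), then some maximal totally singular subspace `W` meets `g⁻¹ W` non-trivially and
`H = {w ∈ W | g w ∈ W}` has codimension at least two in `W`.
-/

set_option autoImplicit false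

namespace Cfsg.Agent.H311.TW

open Module QuadraticMap Cfsg.Agent.LieClassical.OrthCore Cfsg.Agent.LieClassical.OrthTrans
  Cfsg.Agent.LieClassical.OrthFinite
open Cfsg.Agent.H434.Corn (TS MaxTS exists_maxTS ts_span_pair exists_moved exists_inf perp)

variable {F V : Type*} [Field F] [AddCommGroup V] [Module F V] {Q : QuadraticForm F V}

/-- `{w ∈ W | g w ∈ W}` -/
def HH (g : V ≃ₗ[F] V) (W : Submodule F V) : Submodule F V := W ⊓ W.comap g.toLinearMap

theorem mem_HH {g : V ≃ₗ[F] V} {W : Submodule F V} {w : V} : w ∈ HH g W ↔ w ∈ W ∧ g w ∈ W := Iff.rfl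

/-- codimension at least two -/
def Good (g : V ≃ₗ[F] V) (W : Submodule F V) : Prop :=
  ∃ x ∈ W, ∃ y ∈ W, ∀ a b : F, g (a • x + b • y) ∈ W → a = 0 ∧ b = 0

theorem finrank_le_of_not_good [FiniteDimensional F V] {g : V ≃ₗ[F] V} {W : Submodule F V} (h : ¬ Good g W) :
    finrank F W ≤ finrank F (HH g W) + 1 := by
  by_contra hcon
  push Not at hcon
  apply h
  have hle : HH g W ≤ W := inf_le_left
  obtain ⟨x, hx, hxH⟩ : ∃ x ∈ W, x ∉ HH g W := by
    by_contra h0
    push Not at h0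
    have := Submodule.finrank_mono (show W ≤ HH g W from h0)
    omega
  have h1 : finrank F ↥(HH g W ⊔ Submodule.span F {x}) ≤ finrank F (HH g W) + 1 := by
    have h2 := Submodule.finrank_add_le_finrank_add_finrank (HH g W) (Submodule.span F {x})
    have h3 : finrank F (Submodule.span F {x}) ≤ 1 := by
      have := finrank_span_le_card (R := F) ({x} : Set V)
      simpa using this
    omega
  obtain ⟨y, hy, hyH⟩ : ∃ y ∈ W, y ∉ HH g W ⊔ Submodule.span F {x} := by
    by_contra h0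
    push Not at h0
    have := Submodule.finrank_mono (show W ≤ HH g W ⊔ Submodule.span F {x} from h0)
    omega
  refine ⟨x, hx, y, hy, fun a b hab => ?_⟩
  have hm : a • x + b • y ∈ HH g W := ⟨W.add_mem (W.smul_mem _ hx) (W.smul_mem _ hy), hab⟩
  have hb : b = 0 := by
    by_contra hb
    apply hyH
    have e : y = b⁻¹ • (a • x + b • y) + (-(b⁻¹ * a)) • x := by
      rw [smul_add, smul_smul, smul_smul, inv_mul_cancel₀ hb, neg_smul, one_smul]
      abel
    rw [e]
    exact Submodule.add_mem_sup (Submodule.smul_mem _ _ hm)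
      (Submodule.smul_mem _ _ (Submodule.mem_span_singleton_self x))
  refine ⟨?_, hb⟩
  by_contra ha
  apply hxH
  rw [hb, zero_smul, add_zero] at hm
  have e : x = a⁻¹ • (a • x) := by rw [smul_smul, inv_mul_cancel₀ ha, one_smul]
  rw [e]
  exact Submodule.smul_mem _ _ hm

theorem exists_good' [Finite F] [FiniteDimensional F V] (hQ : Nondeg Q) {g : V ≃ₗ[F] V} (hg : g ∈ O Q)
    (hs : ∀ c : F, ∃ v, g v ≠ c • v) (h4 : ∀ W, MaxTS Q W → 4 ≤ finrank F W) {x y : V} (hx : Q x = 0) (hy : Q y = 0)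
    (hxy : polar Q x y = 0) (hR : polar Q (g x) x * polar Q (g y) y ≠ polar Q (g x) y * polar Q (g y) x) :
    ∃ W, MaxTS Q W ∧ (∃ w ∈ W, w ≠ 0 ∧ g w ∈ W) ∧ ∃ x ∈ W, ∃ y ∈ W, ∀ a b : F, g (a • x + b • y) ∈ W → a = 0 ∧ b = 0 := by
  classical
  by_contra hcon
  push Not at hcon
  have hcon' : ∀ W, MaxTS Q W → (∃ w ∈ W, w ≠ 0 ∧ g w ∈ W) → ¬ Good g W := by
    rintro W hW hm ⟨x, hx, y, hy, h⟩
    obtain ⟨a, b, h1, h2⟩ := hcon W hW hm x hx y hy
    obtain ⟨h3, h5⟩ := h a b h1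
    exact h2 h3 h5
  -- the plane
  obtain ⟨W₀, hW₀s, hW₀⟩ := exists_maxTS (ts_span_pair hx hy hxy)
  have hxW : x ∈ W₀ := hW₀s (Submodule.subset_span (by simp))
  have hyW : y ∈ W₀ := hW₀s (Submodule.subset_span (by simp))
  have hgood₀ : Good g W₀ := by
    refine ⟨x, hxW, y, hyW, fun a b hab => ?_⟩
    have h1 : a * polar Q (g x) x + b * polar Q (g y) x = 0 := by
      have := hW₀.ts.pz hab hxW
      rwa [map_add, map_smul, map_smul, polar_add_left, polar_smul_left, polar_smul_left, smul_eq_mul, smul_eq_mul] at this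
    have h2 : a * polar Q (g x) y + b * polar Q (g y) y = 0 := by
      have := hW₀.ts.pz hab hyW
      rwa [map_add, map_smul, map_smul, polar_add_left, polar_smul_left, polar_smul_left, smul_eq_mul, smul_eq_mul] at this
    have hd : polar Q (g x) x * polar Q (g y) y - polar Q (g x) y * polar Q (g y) x ≠ 0 := sub_ne_zero.2 hR
    constructor
    · refine (mul_eq_zero.1 (?_ : a * (polar Q (g x) x * polar Q (g y) y - polar Q (g x) y * polar Q (g y) x) = 0)).resolve_right hd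
      linear_combination polar Q (g y) y * h1 - polar Q (g y) x * h2
    · refine (mul_eq_zero.1 (?_ : b * (polar Q (g x) x * polar Q (g y) y - polar Q (g x) y * polar Q (g y) x) = 0)).resolve_right hd
      linear_combination polar Q (g x) x * h2 - polar Q (g x) y * h1
  have hnm₀ : ¬ ∃ w ∈ W₀, w ≠ 0 ∧ g w ∈ W₀ := fun h => hcon' W₀ hW₀ h hgood₀
  -- a subspace which meets its image
  obtain ⟨Wa, hWa, -, hma⟩ := exists_moved hQ hg hs (fun W hW => (by norm_num : 3 ≤ 4).trans (h4 W hW))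
  -- maximal intersection with `Wa`
  have hb : ∃ n, ∃ W, MaxTS Q W ∧ (¬ ∃ w ∈ W, w ≠ 0 ∧ g w ∈ W) ∧ finrank F V - finrank F ↥(W ⊓ Wa) = n :=
    ⟨_, W₀, hW₀, hnm₀, rfl⟩
  obtain ⟨W₁, hW₁, hnm, hn⟩ := Nat.find_spec hb
  have hdim := hW₁.finrank_eq hWa
  obtain ⟨u, hua, hu1⟩ : ∃ u ∈ Wa, u ∉ W₁ := by
    by_contra h
    push Not at h
    have h5 : Wa ≤ W₁ := h
    have h6 : Wa = W₁ := Submodule.eq_of_le_of_finrank_eq h5 hdim
    rw [h6] at hma
    exact hnm hma
  set U := Submodule.span F {u} ⊔ (W₁ ⊓ perp Q (Submodule.span F {u})) with hU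
  have hUm : MaxTS Q U := hW₁.neighbour (hWa.ts u hua) hu1
  have hUmeet : ∃ w ∈ U, w ≠ 0 ∧ g w ∈ U := by
    by_contra hmv
    have h5 : (W₁ ⊓ Wa) ⊔ Submodule.span F {u} ≤ U ⊓ Wa := by
      refine sup_le (le_inf ?_ inf_le_right) (le_inf le_sup_left
        ((Submodule.span_singleton_le_iff_mem _ _).2 hua))
      refine le_trans ?_ le_sup_right
      rintro k ⟨hk1, hk2⟩
      refine ⟨hk1, fun w hw => ?_⟩
      obtain ⟨c, rfl⟩ := Submodule.mem_span_singleton.1 hw
      rw [polar_smul_left, hWa.ts.pz hua hk2, smul_zero]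
    have h6 : W₁ ⊓ Wa < (W₁ ⊓ Wa) ⊔ Submodule.span F {u} := by
      refine lt_of_le_of_ne le_sup_left (fun h7 => hu1 ?_)
      have h8 : u ∈ W₁ ⊓ Wa := by
        rw [h7]; exact Submodule.mem_sup_right (Submodule.mem_span_singleton_self u)
      exact h8.1
    have h7 := Submodule.finrank_lt_finrank_of_lt h6
    have h8 := Submodule.finrank_mono h5
    have h9 := Submodule.finrank_le (U ⊓ Wa)
    exact Nat.find_min hb (m := finrank F V - finrank F ↥(U ⊓ Wa)) (by omega) ⟨U, hUm, hmv, rfl⟩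
  have hcod : finrank F U ≤ finrank F ↥(W₁ ⊓ U) + 1 := by
    have h5 : W₁ ⊓ perp Q (Submodule.span F {u}) ≤ W₁ ⊓ U := le_inf inf_le_left le_sup_right
    have h6 := Submodule.finrank_mono h5
    have h7 := Submodule.finrank_add_le_finrank_add_finrank (Submodule.span F {u})
      (W₁ ⊓ perp Q (Submodule.span F {u}))
    have h8 : finrank F (Submodule.span F {u}) ≤ 1 := by
      have := finrank_span_le_card (R := F) ({u} : Set V)
      simpa using this
    rw [← hU] at h7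
    omega
  have hHU := finrank_le_of_not_good (hcon' U hUm hUmeet)
  have hU4 := h4 U hUm
  -- `HH g U ⊓ (W₁ ⊓ U)`
  have h10 : finrank F U ≤ finrank F ↥(HH g U ⊓ (W₁ ⊓ U)) + 2 := by
    have h1 := Submodule.finrank_sup_add_finrank_inf_eq (HH g U) (W₁ ⊓ U)
    have h2 : finrank F ↥(HH g U ⊔ (W₁ ⊓ U)) ≤ finrank F U :=
      Submodule.finrank_mono (sup_le (inf_le_left : HH g U ≤ U) (inf_le_right : W₁ ⊓ U ≤ U))
    omega
  have h11 : finrank F ↥((HH g U ⊓ (W₁ ⊓ U)).map g.toLinearMap) = finrank F ↥(HH g U ⊓ (W₁ ⊓ U)) :=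
    LinearEquiv.finrank_map_eq g _
  obtain ⟨z, hz1, ⟨w, hw, rfl⟩, hz0⟩ := exists_inf (U := U) (K := W₁ ⊓ U) (L := (HH g U ⊓ (W₁ ⊓ U)).map g.toLinearMap)
    inf_le_right (by rintro _ ⟨z, hz, rfl⟩; exact hz.1.2) (by omega)
  refine hnm ⟨w, hw.2.1, ?_, hz1.1⟩
  rintro rfl
  exact hz0 (map_zero _)

/-- **Good maximal totally singular subspaces.** -/
theorem exists_good [Finite F] [FiniteDimensional F V] (hQ : Nondeg Q) {g : V ≃ₗ[F] V} (hg : g ∈ O Q)
    (hs : ∀ c : F, ∃ v, g v ≠ c • v) (h4 : ∀ W, MaxTS Q W → 4 ≤ finrank F W) (hR : ¬ H781.TW.R1 Q g) :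
    ∃ W, MaxTS Q W ∧ (∃ w ∈ W, w ≠ 0 ∧ g w ∈ W) ∧ ∃ x ∈ W, ∃ y ∈ W, ∀ a b : F, g (a • x + b • y) ∈ W → a = 0 ∧ b = 0 := by
  unfold H781.TW.R1 at hR
  push Not at hR
  obtain ⟨x, y, hx, hy, hxy, h⟩ := hR
  exact exists_good' hQ hg hs h4 hx hy hxy h

end Cfsg.Agent.H311.TW
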